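import Cfsg.Agent.KFacts.Co1.InCo1
import Cfsg.Agent.CoOneType.ModelFinal

/-!
# The octad lattice `√2 E8` inside the Leech lattice (helper75, row 2.Co1 of S2492)

`L8 = ℤ⁸`, `F : L8 →+ Λ` an isomorphism onto the vectors supported on the octad `c0`, `sqNorm (F n) = 32 * Qh n`.
The basis is chosen such that `Qh` modulo 2 is the form `n₀n₄ + n₁n₅ + n₂n₆ + n₃n₇`.
-/

set_option autoImplicit false

namespace Cfsg.Agent.H75.QO

open Cfsg Cfsg.Agent.SporadicA Cfsg.Agent.SporadicA.Co0Mono Cfsg.Agent.SporadicA.GolayBase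
open Cfsg.Agent.SporadicStructure.LeechBase
open Cfsg.Agent.CoOneType.SignFacts (sup mem_sup wt)
open Cfsg.Agent.CoOneType.GenCrit (c0 m0 m0_code)
open Cfsg.Agent.CoOneType.CentOctad (C0 mem_C0)
open Cfsg.Agent.KFacts.Co1.RHat

/-- integral coordinates -/
abbrev L8 : Type := Fin 8 → ℤ

/-- the points of the octad -/
def ps : Fin 8 → GolayPt := ![pt 0, pt 1, pt 2, pt 3, pt 4, pt 7, pt 10, pt 12]

theorem ps_inj : Function.Injective ps := by
  intro i j; revert i j; decide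

theorem testBit_ps : ∀ p : GolayPt, m0.testBit (idx p) = true ↔ ∃ i, ps i = p := by decide +kernel

theorem mem_sup_c0 {p : GolayPt} : p ∈ sup c0 ↔ ∃ i, ps i = p := by
  rw [← testBit_ps, mem_sup]
  show (word m0 p = 1) ↔ _
  rw [word_apply]
  split_ifs with h
  · simp [h]
  · simp [h]

theorem ps_mem (i : Fin 8) : ps i ∈ sup c0 := mem_sup_c0.2 ⟨i, rfl⟩

/-- the coordinates on the octad (half of the coordinates of the lattice vector) -/
def yc (n : L8) : L8 :=
  ![n 0 + 2 * n 1 - n 3 - n 4 - 2 * n 6 - n 7,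
    n 0 - 2 * n 1 + n 3 - n 4 - 2 * n 5 + n 7,
    n 0 - 2 * n 2 - n 3 + n 4 - 2 * n 5 - 2 * n 6 - 3 * n 7,
    3 * n 0 + 2 * n 1 + 2 * n 2 - n 3 - 3 * n 4 - 2 * n 6 - n 7,
    n 0 + 2 * n 1 + 2 * n 2 - n 3 - n 4 - n 7,
    n 0 + 2 * n 2 - 3 * n 3 + n 4 - 2 * n 5 + 2 * n 6 - n 7,
    n 0 - n 3 - n 4 - 2 * n 5 - n 7,
    -n 0 - n 3 + n 4 - n 7]

/-- half of the norm -/
def Qh (n : L8) : ℤ :=
  2 * (n 0 ^ 2 + n 1 ^ 2 + n 2 ^ 2 + n 3 ^ 2 + n 4 ^ 2 + n 5 ^ 2 + n 6 ^ 2 + n 7 ^ 2) +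
    2 * n 0 * n 1 + 2 * n 0 * n 2 - 2 * n 0 * n 3 - 3 * n 0 * n 4 - 2 * n 0 * n 5 - 2 * n 0 * n 6 - 2 * n 0 * n 7 +
    2 * n 1 * n 2 - 2 * n 1 * n 3 - 2 * n 1 * n 4 + n 1 * n 5 - 2 * n 1 * n 6 - 2 * n 1 * n 7 -
    2 * n 2 * n 3 - 2 * n 2 * n 4 + n 2 * n 6 + 2 * n 3 * n 5 + 3 * n 3 * n 7 + 2 * n 4 * n 6 +
    2 * n 5 * n 7 + 2 * n 6 * n 7

theorem sum_yc_sq (n : L8) : ∑ i, yc n i ^ 2 = 8 * Qh n := by
  rw [Fin.sum_univ_eight]
  simp only [yc, Qh, Matrix.cons_val_zero, Matrix.cons_val_one, Matrix.cons_val]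
  ring

/-- the vector with given coordinates on the octad -/
def vec (y : L8) : GolayPt → ℤ := fun p => ∑ i, if ps i = p then 2 * y i else 0

theorem vec_ps (y : L8) (i : Fin 8) : vec y (ps i) = 2 * y i := by
  rw [vec, Finset.sum_eq_single i]
  · rw [if_pos rfl]
  · intro j _ hj
    rw [if_neg fun h => hj (ps_inj h)]
  · intro h; exact absurd (Finset.mem_univ _) h

theorem vec_of_notMem (y : L8) {p : GolayPt} (hp : p ∉ sup c0) : vec y p = 0 := by
  rw [vec]
  refine Finset.sum_eq_zero fun i _ => if_neg ?_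
  rintro rfl
  exact hp (ps_mem i)

theorem vec_add (y z : L8) : vec (y + z) = vec y + vec z := by
  funext p
  rw [Pi.add_apply, vec, vec, vec, ← Finset.sum_add_distrib]
  refine Finset.sum_congr rfl fun i _ => ?_
  split_ifs
  · rw [Pi.add_apply]; ring
  · ring

theorem sum_of_supp {f : GolayPt → ℤ} (hf : ∀ p, p ∉ sup c0 → f p = 0) : ∑ p, f p = ∑ i, f (ps i) := by
  symm
  refine Fintype.sum_of_injective ps ps_inj _ _ ?_ fun i => rfl
  intro p hp
  exact hf p fun h => hp (mem_sup_c0.1 h)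

theorem sqNorm_vec (y : L8) : sqNorm (vec y) = 4 * ∑ i, y i ^ 2 := by
  show ∑ p, vec y p ^ 2 = _
  rw [sum_of_supp fun p hp => by rw [vec_of_notMem y hp]; rfl, Finset.mul_sum]
  refine Finset.sum_congr rfl fun i _ => ?_
  rw [vec_ps]; ring

theorem word_c0_mem : word m0 ∈ golayCode := c0.2

theorem vec_mem {y : L8} (h2 : ∀ i, (2 : ℤ) ∣ y i - y 0) (h4 : (4 : ℤ) ∣ ∑ i, y i) : vec y ∈ leechLattice := by
  rw [mem_leech_iff]
  refine ⟨0, fun p => ∑ i, if ps i = p then y i else 0, ?_, ?_, ?_⟩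
  · have h : red (fun p => ∑ i, if ps i = p then y i else 0) = ((y 0 : ℤ) : ZMod 2) • word m0 := by
      funext p
      rw [red_apply, Pi.smul_apply, smul_eq_mul, word_apply]
      by_cases hp : ∃ i, ps i = p
      · obtain ⟨i, rfl⟩ := hp
        rw [if_pos ((testBit_ps _).2 ⟨i, rfl⟩), mul_one, Finset.sum_eq_single i]
        · rw [if_pos rfl]
          have h := (ZMod.intCast_zmod_eq_zero_iff_dvd (y i - y 0) 2).2 (h2 i)
          push_cast at h
          exact sub_eq_zero.1 h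
        · intro j _ hj
          rw [if_neg fun h => hj (ps_inj h)]
        · intro h; exact absurd (Finset.mem_univ _) h
      · rw [if_neg fun h => hp ((testBit_ps _).1 h), mul_zero, Finset.sum_eq_zero]
        · rfl
        · intro i _
          exact if_neg fun h => hp ⟨i, h⟩
    rw [h]
    exact golayCode.smul_mem _ word_c0_mem
  · have h : ∑ p, (∑ i, if ps i = p then y i else 0) = ∑ i, y i := by
      rw [Finset.sum_comm]
      refine Finset.sum_congr rfl fun i _ => ?_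
      rw [Finset.sum_ite_eq]
      simp
    rw [h, mul_zero]
    exact (Int.modEq_zero_iff_dvd).2 h4
  · intro p
    rw [vec, zero_add, Finset.mul_sum]
    refine Finset.sum_congr rfl fun i _ => ?_
    split_ifs <;> ring

theorem yc_two (n : L8) (i : Fin 8) : (2 : ℤ) ∣ yc n i - yc n 0 := by
  fin_cases i <;> simp only [yc, Matrix.cons_val_zero, Matrix.cons_val_one, Matrix.cons_val, Fin.isValue,
    Fin.mk_zero, Fin.mk_one, Fin.reduceFinMk] <;> omega

theorem yc_four (n : L8) : (4 : ℤ) ∣ ∑ i, yc n i := by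
  rw [Fin.sum_univ_eight]
  simp only [yc, Matrix.cons_val_zero, Matrix.cons_val_one, Matrix.cons_val]
  omega

/-- the octad lattice -/
def F : L8 →+ leechLattice :=
  AddMonoidHom.mk' (fun n => ⟨vec (yc n), vec_mem (yc_two n) (yc_four n)⟩) (by
    intro m n
    apply Subtype.ext
    show vec (yc (m + n)) = vec (yc m) + vec (yc n)
    rw [← vec_add]
    congr 1
    funext i
    fin_cases i <;> simp only [yc, Matrix.cons_val_zero, Matrix.cons_val_one, Matrix.cons_val, Fin.isValue,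
      Fin.mk_zero, Fin.mk_one, Fin.reduceFinMk, Pi.add_apply] <;> ring)

theorem F_coe (n : L8) : ((F n : leechLattice) : GolayPt → ℤ) = vec (yc n) := rfl

theorem sqNorm_F (n : L8) : sqNorm ((F n : leechLattice) : GolayPt → ℤ) = 32 * Qh n := by
  rw [F_coe, sqNorm_vec, sum_yc_sq]; ring

theorem yc_inj {n : L8} (h : yc n = 0) : n = 0 := by
  have h0 := congrFun h 0
  have h1 := congrFun h 1
  have h2 := congrFun h 2
  have h3 := congrFun h 3
  have h4 := congrFun h 4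
  have h5 := congrFun h 5
  have h6 := congrFun h 6
  have h7 := congrFun h 7
  simp only [yc, Matrix.cons_val_zero, Matrix.cons_val_one, Matrix.cons_val, Pi.zero_apply] at h0 h1 h2 h3 h4 h5 h6 h7
  funext i
  fin_cases i <;> simp only [Fin.isValue, Fin.mk_zero, Fin.mk_one, Fin.reduceFinMk, Pi.zero_apply] <;> omega

theorem F_eq_zero {n : L8} (h : F n = 0) : n = 0 := by
  apply yc_inj
  funext i
  have h1 : vec (yc n) (ps i) = 0 := congrArg (fun v : leechLattice => (v : GolayPt → ℤ) (ps i)) h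
  rw [vec_ps] at h1
  show yc n i = 0
  omega

theorem F_inj : Function.Injective F := (injective_iff_map_eq_zero F).2 fun _ h => F_eq_zero h

theorem F_neg (n : L8) : signCo0 c0 • F n = -F n := (sign_neg_iff c0 _).2 fun _ hp => vec_of_notMem _ hp

set_option maxHeartbeats 2000000 in
theorem exists_yc {y : L8} (h2 : ∀ i, (2 : ℤ) ∣ y i - y 0) (h4 : (4 : ℤ) ∣ ∑ i, y i) : ∃ n : L8, yc n = y := by
  have p1 := h2 1
  have p2 := h2 2
  have p3 := h2 3
  have p4 := h2 4
  have p5 := h2 5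
  have p6 := h2 6
  have p7 := h2 7
  rw [Fin.sum_univ_eight] at h4
  obtain ⟨n0, e0⟩ : (4 : ℤ) ∣ (-1) * y 0 + (-1) * y 1 + (1) * y 2 + (1) * y 3 + (-1) * y 4 + (1) * y 5 + (-1) * y 6 + (-3) * y 7 := by omega
  obtain ⟨n1, e1⟩ : (4 : ℤ) ∣ (2) * y 0 + (-2) * y 3 + (2) * y 4 + (-2) * y 7 := by omega
  obtain ⟨n2, e2⟩ : (4 : ℤ) ∣ (2) * y 1 + (2) * y 4 + (-2) * y 6 + (2) * y 7 := by omega
  obtain ⟨n3, e3⟩ : (4 : ℤ) ∣ (-1) * y 0 + (1) * y 1 + (1) * y 2 + (-1) * y 3 + (3) * y 4 + (-1) * y 5 + (-1) * y 6 + (-1) * y 7 := by omega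
  obtain ⟨n4, e4⟩ : (4 : ℤ) ∣ (1) * y 0 + (1) * y 1 + (1) * y 2 + (-1) * y 3 + (1) * y 4 + (1) * y 5 + (-3) * y 6 + (-1) * y 7 := by omega
  obtain ⟨n5, e5⟩ : (4 : ℤ) ∣ (-2) * y 0 + (-2) * y 1 + (2) * y 3 + (-2) * y 4 := by omega
  obtain ⟨n6, e6⟩ : (4 : ℤ) ∣ (-2) * y 0 + (-2) * y 1 + (2) * y 6 + (-2) * y 7 := by omega
  obtain ⟨n7, e7⟩ : (4 : ℤ) ∣ (3) * y 0 + (1) * y 1 + (-1) * y 2 + (-1) * y 3 + (-1) * y 4 + (1) * y 5 + (-1) * y 6 + (-1) * y 7 := by omega
  clear p1 p2 p3 p4 p5 p6 p7 h2 h4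
  refine ⟨![n0, n1, n2, n3, n4, n5, n6, n7], ?_⟩
  funext i
  fin_cases i <;> simp only [yc, Matrix.cons_val_zero, Matrix.cons_val_one, Matrix.cons_val, Fin.isValue,
    Fin.mk_zero, Fin.mk_one, Fin.reduceFinMk] <;> linarith

theorem code_sub_octad {w : GolayPt → ZMod 2} (hw : w ∈ golayCode) (h : ∀ p, p ∉ sup c0 → w p = 0) :
    w = 0 ∨ w = word m0 := by
  let c : golayCode := ⟨w, hw⟩
  have hsub : sup c ⊆ sup c0 := by
    intro p hp
    by_contra h1
    have h2 : w p = 1 := (mem_sup c p).1 hp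
    rw [h p h1] at h2
    exact absurd h2 (by decide)
  have h8 : (sup c0).card = 8 := Cfsg.Agent.CoOneType.ModelFinal.wt_c0
  have hle := Finset.card_le_card hsub
  rcases Cfsg.Agent.CoOneType.SignFacts.wt_cases c with h1 | h1 | h1 | h1 | h1
  · left
    exact congrArg Subtype.val (Cfsg.Agent.CoOneType.ClosingFacts.eq_zero_of_wt h1)
  · right
    have h2 : sup c = sup c0 := Finset.eq_of_subset_of_card_le hsub (by rw [h8]; exact h1.ge)
    exact congrArg Subtype.val (Cfsg.Agent.KFacts.Co1.OctPts.sup_ext h2)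
  all_goals
    have h3 : (sup c).card = _ := h1
    omega

/-- the vectors negated by `ε_o` -/
theorem exists_F {x : leechLattice} (hx : signCo0 c0 • x = -x) : ∃ n, F n = x := by
  rw [sign_neg_iff] at hx
  obtain ⟨m, z, hz, hs, h⟩ := (mem_leech_iff _).1 x.2
  -- an outer point
  have h0 : pt 5 ∉ sup c0 := by
    rw [mem_sup_c0]; decide
  have hm : m = -2 * z (pt 5) := by
    have := h (pt 5)
    rw [hx _ h0] at this
    omega
  set t : ℤ := -z (pt 5) with ht
  have hm' : m = 2 * t := by rw [hm, ht]; ring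
  have hz0 : ∀ p, p ∉ sup c0 → z p = -t := by
    intro p hp
    have := h p
    rw [hx p hp, hm'] at this
    omega
  -- the word
  have hw : red (fun p => z p + t) ∈ golayCode := by
    have e : red (fun p => z p + t) = red z + ((t : ℤ) : ZMod 2) • (1 : GolayPt → ZMod 2) := by
      funext p
      rw [red_apply, Pi.add_apply, red_apply, Pi.smul_apply, Pi.one_apply, smul_eq_mul, mul_one]
      push_cast; rfl
    rw [e]
    exact golayCode.add_mem hz (golayCode.smul_mem _ (Submodule.subset_span (Set.mem_union_right _ rfl)))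
  have hw0 : ∀ p, p ∉ sup c0 → red (fun p => z p + t) p = 0 := by
    intro p hp
    rw [red_apply, hz0 p hp, neg_add_cancel, Int.cast_zero]
  have hpar : ∀ i, (2 : ℤ) ∣ (z (ps i) + t) - (z (ps 0) + t) := by
    intro i
    refine (ZMod.intCast_zmod_eq_zero_iff_dvd _ 2).1 ?_
    push_cast
    rcases code_sub_octad hw hw0 with h1 | h1
    · have e : ∀ j, ((z (ps j) : ℤ) : ZMod 2) + (t : ZMod 2) = 0 := by
        intro j
        have := congrFun h1 (ps j)
        rw [red_apply] at this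
        push_cast at this
        exact this
      rw [e, e, sub_zero]
    · have e : ∀ j, ((z (ps j) : ℤ) : ZMod 2) + (t : ZMod 2) = 1 := by
        intro j
        have := congrFun h1 (ps j)
        rw [red_apply, word_apply, if_pos ((testBit_ps _).2 ⟨j, rfl⟩)] at this
        push_cast at this
        exact this
      rw [e, e, sub_self]
  have hsum : (4 : ℤ) ∣ ∑ i, (z (ps i) + t) := by
    have h1 : ∑ p, (z p + t) = ∑ i, (z (ps i) + t) := sum_of_supp fun p hp => by rw [hz0 p hp]; ring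
    rw [← h1, Finset.sum_add_distrib, Finset.sum_const, Finset.card_univ,
      show Fintype.card GolayPt = 24 from rfl, nsmul_eq_mul]
    have h2 := hs.dvd
    rw [hm'] at h2
    omega
  have hxv : ∀ i, (x : GolayPt → ℤ) (ps i) = 2 * (z (ps i) + t) := by
    intro i
    rw [h, hm']; ring
  obtain ⟨n, hn⟩ := exists_yc (y := fun i => z (ps i) + t) hpar hsum
  refine ⟨n, Subtype.ext (funext fun p => ?_)⟩
  rw [F_coe]
  by_cases hp : p ∈ sup c0
  · obtain ⟨i, rfl⟩ := mem_sup_c0.1 hp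
    rw [vec_ps, hn, hxv]
  · rw [vec_of_notMem _ hp, hx p hp]

end Cfsg.Agent.H75.QO
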