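import Cfsg.Agent.H75.QO.Lat

/-!
# The action of `C(ε_o)` on the octad lattice (helper75, row 2.Co1 of S2492)

`mu : C0 c0 →* GL₈(ℤ)`, values in `Gam`, the isometries of the Gram matrix, `mu g = 1 ↔ g ∈ Rh c0`.
`eq_of_mod` : an isometry congruent to 1 modulo 2 is `±1`.
-/

set_option autoImplicit false

namespace Cfsg.Agent.H75.QO

open Cfsg Cfsg.Agent.SporadicA Cfsg.Agent.SporadicA.Co0Mono Cfsg.Agent.SporadicA.GolayBase
open Cfsg.Agent.SporadicA.Co1Simple (allOne)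
open Cfsg.Agent.CoOneType.SignFacts (sup mem_sup wt)
open Cfsg.Agent.CoOneType.GenCrit (c0 m0 m0_code)
open Cfsg.Agent.CoOneType.CentOctad (C0 mem_C0 sign_mem)
open Cfsg.Agent.KFacts.Co1.RHat
open Matrix

/-- integral matrices -/
abbrev M8 : Type := Matrix (Fin 8) (Fin 8) ℤ

/-- the Gram matrix -/
def Gm : M8 := !![4, 2, 2, -2, -3, -2, -2, -2; 2, 4, 2, -2, -2, 1, -2, -2; 2, 2, 4, -2, -2, 0, 1, 0;
  -2, -2, -2, 4, 0, 2, 0, 3; -3, -2, -2, 0, 4, 0, 2, 0; -2, 1, 0, 2, 0, 4, 0, 2; -2, -2, 1, 0, 2, 0, 4, 2;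
  -2, -2, 0, 3, 0, 2, 2, 4]

/-- its inverse -/
def Gi : M8 := !![4, 0, -2, 0, 1, 2, 2, 0; 0, 4, 0, 2, 2, -3, 0, 2; -2, 0, 4, 2, 2, -2, -3, 0;
  0, 2, 2, 4, 2, -2, 0, -1; 1, 2, 2, 2, 4, -2, -2, 2; 2, -3, -2, -2, -2, 4, 2, -2; 2, 0, -3, 0, -2, 2, 4, -2;
  0, 2, 0, -1, 2, -2, -2, 4]

theorem Gi_mul : Gi * Gm = 1 := by decide +kernel

theorem Gm_symm : Gmᵀ = Gm := by decide +kernel

/-- the bilinear form -/
def Bl (m n : L8) : ℤ := m ⬝ᵥ Gm *ᵥ n

theorem Bl_add_left (m m' n : L8) : Bl (m + m') n = Bl m n + Bl m' n := add_dotProduct _ _ _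
theorem Bl_add_right (m n n' : L8) : Bl m (n + n') = Bl m n + Bl m n' := by
  rw [Bl, Bl, Bl, mulVec_add, dotProduct_add]
theorem Bl_comm (m n : L8) : Bl m n = Bl n m := by
  rw [Bl, dotProduct_mulVec, ← mulVec_transpose, Gm_symm, dotProduct_comm, Bl]

theorem Bl_self (n : L8) : Bl n n = 2 * Qh n := by
  simp only [Bl, Gm, Qh, dotProduct, mulVec, Fin.sum_univ_eight, Matrix.of_apply, Matrix.cons_val', Matrix.cons_val_zero,
    Matrix.cons_val_one, Matrix.cons_val, Matrix.cons_val_fin_one]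
  ring

theorem Qh_add (m n : L8) : Qh (m + n) = Qh m + Qh n + Bl m n := by
  have h1 := Bl_self (m + n)
  rw [Bl_add_left, Bl_add_right, Bl_add_right, Bl_self, Bl_self, Bl_comm n m] at h1
  linarith

theorem Qh_nonneg (n : L8) : 0 ≤ Qh n := by
  have h := sum_yc_sq n
  have h1 : 0 ≤ ∑ i, yc n i ^ 2 := Finset.sum_nonneg fun i _ => sq_nonneg _
  omega

theorem eq_zero_of_Qh {n : L8} (h : Qh n = 0) : n = 0 := by
  apply yc_inj
  have h1 := sum_yc_sq n
  rw [h, mul_zero, Finset.sum_eq_zero_iff_of_nonneg fun i _ => sq_nonneg _] at h1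
  funext i
  exact pow_eq_zero_iff (two_ne_zero) |>.1 (h1 i (Finset.mem_univ i))

/-! ### Isometries -/

/-- the isometry group of the Gram matrix -/
def Gam : Subgroup M8ˣ where
  carrier := {A | (A : M8)ᵀ * Gm * (A : M8) = Gm}
  one_mem' := by
    show (1 : M8)ᵀ * Gm * 1 = Gm
    rw [transpose_one, one_mul, mul_one]
  mul_mem' := fun {A B} hA hB => by
    have hA' : (A : M8)ᵀ * Gm * (A : M8) = Gm := hA
    have hB' : (B : M8)ᵀ * Gm * (B : M8) = Gm := hB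
    show ((A : M8) * (B : M8))ᵀ * Gm * ((A : M8) * (B : M8)) = Gm
    calc ((A : M8) * (B : M8))ᵀ * Gm * ((A : M8) * (B : M8)) = (B : M8)ᵀ * ((A : M8)ᵀ * Gm * (A : M8)) * (B : M8) := by
          rw [transpose_mul]; simp only [mul_assoc]
      _ = Gm := by rw [hA', hB']
  inv_mem' := fun {A} hA => by
    have hA' : (A : M8)ᵀ * Gm * (A : M8) = Gm := hA
    show ((A⁻¹ : M8ˣ) : M8)ᵀ * Gm * ((A⁻¹ : M8ˣ) : M8) = Gm
    have e : (A : M8) * ((A⁻¹ : M8ˣ) : M8) = 1 := A.mul_inv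
    calc ((A⁻¹ : M8ˣ) : M8)ᵀ * Gm * ((A⁻¹ : M8ˣ) : M8) =
          ((A⁻¹ : M8ˣ) : M8)ᵀ * ((A : M8)ᵀ * Gm * (A : M8)) * ((A⁻¹ : M8ˣ) : M8) := by rw [hA']
      _ = ((A : M8) * ((A⁻¹ : M8ˣ) : M8))ᵀ * Gm * ((A : M8) * ((A⁻¹ : M8ˣ) : M8)) := by
          rw [transpose_mul]; simp only [mul_assoc]
      _ = Gm := by rw [e, transpose_one, one_mul, mul_one]

theorem mem_Gam {A : M8ˣ} : A ∈ Gam ↔ (A : M8)ᵀ * Gm * (A : M8) = Gm := Iff.rfl

theorem dot_map (A : M8) (m w : L8) : (A *ᵥ m) ⬝ᵥ w = m ⬝ᵥ (Aᵀ *ᵥ w) := by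
  rw [dotProduct_comm, dotProduct_mulVec, ← mulVec_transpose, dotProduct_comm]

theorem Bl_mulVec (A : M8) (m n : L8) : Bl (A *ᵥ m) (A *ᵥ n) = m ⬝ᵥ (Aᵀ * Gm * A) *ᵥ n := by
  rw [Bl, dot_map, mulVec_mulVec, mulVec_mulVec]

theorem Bl_map {A : M8} (hA : Aᵀ * Gm * A = Gm) (m n : L8) : Bl (A *ᵥ m) (A *ᵥ n) = Bl m n := by
  rw [Bl_mulVec, hA, Bl]

theorem Qh_map {A : M8} (hA : Aᵀ * Gm * A = Gm) (n : L8) : Qh (A *ᵥ n) = Qh n := by
  have h1 := Bl_map hA n n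
  rw [Bl_self, Bl_self] at h1
  linarith

theorem isom_of_Qh {A : M8} (h : ∀ n, Qh (A *ᵥ n) = Qh n) : Aᵀ * Gm * A = Gm := by
  have hB : ∀ m n, Bl (A *ᵥ m) (A *ᵥ n) = Bl m n := by
    intro m n
    have h1 := Qh_add (A *ᵥ m) (A *ᵥ n)
    rw [← mulVec_add, h, h, h, Qh_add] at h1
    linarith
  ext i j
  have h1 := hB (Pi.single i 1) (Pi.single j 1)
  rw [Bl_mulVec, Bl] at h1
  simpa using h1

/-! ### The action -/

theorem neg_of_mem {g : Co0} (hg : g ∈ C0 c0) {x : leechLattice} (hx : signCo0 c0 • x = -x) :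
    signCo0 c0 • (g • x) = -(g • x) := by
  rw [← mul_smul, ← mem_C0.1 hg, mul_smul, hx, smul_neg]

theorem exists_act (g : C0 c0) (n : L8) : ∃ n' : L8, F n' = (g : Co0) • F n := exists_F (neg_of_mem g.2 (F_neg n))

/-- the action on coordinates -/
noncomputable def act (g : C0 c0) (n : L8) : L8 := Classical.choose (exists_act g n)

theorem F_act (g : C0 c0) (n : L8) : F (act g n) = (g : Co0) • F n := Classical.choose_spec (exists_act g n)

theorem act_add (g : C0 c0) (m n : L8) : act g (m + n) = act g m + act g n := by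
  apply F_inj
  rw [map_add, F_act, F_act, F_act, map_add, Co0Mono.smul_add]

theorem act_mul (g h : C0 c0) (n : L8) : act (g * h) n = act g (act h n) := by
  apply F_inj
  rw [F_act, F_act, F_act, Subgroup.coe_mul, mul_smul]

theorem act_one (n : L8) : act 1 n = n := by
  apply F_inj
  rw [F_act, Subgroup.coe_one, one_smul]

theorem Qh_act (g : C0 c0) (n : L8) : Qh (act g n) = Qh n := by
  have h1 := sqNorm_F (act g n)
  rw [F_act, sqNorm_smul, sqNorm_F] at h1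
  omega

/-- the linear map -/
noncomputable def actL (g : C0 c0) : L8 →ₗ[ℤ] L8 := (AddMonoidHom.mk' (act g) (act_add g)).toIntLinearMap

/-- the matrices -/
noncomputable def matH : C0 c0 →* M8 where
  toFun g := LinearMap.toMatrix' (actL g)
  map_one' := by
    rw [show actL 1 = LinearMap.id from LinearMap.ext act_one, LinearMap.toMatrix'_id]
  map_mul' g h := by
    rw [← LinearMap.toMatrix'_mul]
    congr 1
    exact LinearMap.ext (act_mul g h)

theorem matH_mulVec (g : C0 c0) (n : L8) : matH g *ᵥ n = act g n := by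
  show LinearMap.toMatrix' (actL g) *ᵥ n = _
  rw [LinearMap.toMatrix'_mulVec]
  rfl

/-- **the representation** -/
noncomputable def mu : C0 c0 →* M8ˣ := matH.toHomUnits

theorem mu_mulVec (g : C0 c0) (n : L8) : (mu g : M8) *ᵥ n = act g n := matH_mulVec g n

theorem mu_mem (g : C0 c0) : mu g ∈ Gam := isom_of_Qh fun n => by rw [mu_mulVec, Qh_act]

theorem ext_mulVec {A B : M8} (h : ∀ n, A *ᵥ n = B *ᵥ n) : A = B := by
  ext i j
  have h1 := congrFun (h (Pi.single j 1)) i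
  simpa using h1

theorem mu_eq_one_iff (g : C0 c0) : mu g = 1 ↔ (g : Co0) ∈ Rh c0 := by
  constructor
  · intro h x hx
    obtain ⟨n, rfl⟩ := exists_F hx
    rw [← F_act, ← mu_mulVec, h, Units.val_one, one_mulVec]
  · intro h
    apply Units.ext
    apply ext_mulVec
    intro n
    rw [mu_mulVec, Units.val_one, one_mulVec]
    apply F_inj
    rw [F_act]
    exact h _ (F_neg n)

/-- `-1` -/
noncomputable def negC : C0 c0 := ⟨signCo0 allOne, sign_mem c0 allOne⟩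

theorem mu_neg : mu negC = -1 := by
  apply Units.ext
  apply ext_mulVec
  intro n
  rw [mu_mulVec, Units.val_neg, Units.val_one, neg_mulVec, one_mulVec]
  apply F_inj
  rw [F_act, map_neg]
  have h : signCo0 allOne • F n = -F n := (sign_neg_iff allOne _).2 fun p hp =>
    absurd ((mem_sup allOne p).2 rfl) hp
  exact h

/-! ### Isometries congruent to 1 modulo 2 -/

/-- a basis of roots, consecutive ones not orthogonal -/
def RM : M8 := !![-1, 0, 1, 0, -1, 0, 0, -1; 0, 0, 0, 0, 0, -1, 0, -1; 0, 1, 0, 0, 0, 0, 1, 0; 0, 1, 0, 1, 0, -1, 1, -1;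
  -1, 1, 1, 0, -1, 0, 0, -1; 0, 0, 0, 0, 0, 1, 0, 0; 0, -1, -1, 0, 0, 0, 0, 0; 0, 0, 1, -1, -1, 0, -1, 0]

/-- the inverse -/
def RI : M8 := !![0, 0, 0, 1, -1, 1, 0, 1; -1, 0, 0, 0, 1, 0, 0, 0; 1, 0, 0, 0, -1, 0, -1, 0; 0, -1, -1, 1, 0, 0, 0, 0;
  0, 1, 0, -1, 0, 0, -1, -1; 0, 0, 0, 0, 0, 1, 0, 0; 1, 0, 1, 0, -1, 0, 0, 0; 0, -1, 0, 0, 0, -1, 0, 0]

theorem RM_RI : RM * RI = 1 := by decide +kernel

/-- the roots -/
def rt (k : Fin 8) : L8 := fun i => RM i k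

theorem Qh_rt : ∀ k, Qh (rt k) = 1 := by decide +kernel

theorem Bl_rt : ∀ k : Fin 7, Bl (rt k.castSucc) (rt k.succ) ≠ 0 := by decide +kernel

theorem Qh_two (n : L8) : Qh ((2 : ℤ) • n) = 4 * Qh n := by
  have h := Qh_add n n
  rw [Bl_self] at h
  rw [two_smul]
  linarith

theorem Bl_two (m n : L8) : Bl m ((2 : ℤ) • n) = 2 * Bl m n := by
  rw [two_smul, Bl_add_right]; ring

theorem Bl_neg (m n : L8) : Bl m (-n) = -Bl m n := by
  rw [Bl, Bl, mulVec_neg, dotProduct_neg]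

theorem two_mul_mulVec (W : M8) (n : L8) : (2 * W) *ᵥ n = (2 : ℤ) • (W *ᵥ n) := by
  rw [two_mul, add_mulVec, two_smul]

theorem root_cases {A : M8} (hA : Aᵀ * Gm * A = Gm) {W : M8} (h2 : A = 1 + 2 * W) {r : L8} (hr : Qh r = 1) :
    A *ᵥ r = r ∨ A *ᵥ r = -r := by
  have e : A *ᵥ r = r + (2 : ℤ) • (W *ᵥ r) := by rw [h2, add_mulVec, one_mulVec, two_mul_mulVec]
  set w := W *ᵥ r with hw
  have h1 := Qh_map hA r
  rw [e, Qh_add, Qh_two, Bl_two, hr] at h1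
  have h3 : Qh (r + w) = 1 - Qh w := by rw [Qh_add, hr]; linarith
  have h4 := Qh_nonneg w
  have h5 := Qh_nonneg (r + w)
  have h6 : Qh w = 0 ∨ Qh (r + w) = 0 := by omega
  rcases h6 with h6 | h6
  · left
    rw [e, eq_zero_of_Qh h6, _root_.smul_zero, add_zero]
  · right
    have h7 : w = -r := (neg_eq_of_add_eq_zero_right (eq_zero_of_Qh h6)).symm
    rw [e, h7, two_smul]
    abel

theorem eq_one_of {A : M8} (hA : Aᵀ * Gm * A = Gm) {W : M8} (h2 : A = 1 + 2 * W) (h0 : A *ᵥ rt 0 = rt 0) : A = 1 := by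
  have step : ∀ k : Fin 7, A *ᵥ rt k.castSucc = rt k.castSucc → A *ᵥ rt k.succ = rt k.succ := by
    intro k hk
    rcases root_cases hA h2 (Qh_rt k.succ) with h | h
    · exact h
    · exfalso
      have h3 := Bl_map hA (rt k.castSucc) (rt k.succ)
      rw [hk, h, Bl_neg] at h3
      exact Bl_rt k (by linarith)
  have all : ∀ k : Fin 8, A *ᵥ rt k = rt k := by
    intro k
    induction k using Fin.induction with
    | zero => exact h0
    | succ k ih => exact step k ih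
  have h3 : A * RM = RM := by
    ext i k
    have := congrFun (all k) i
    exact this
  calc A = A * (RM * RI) := by rw [RM_RI, mul_one]
    _ = RM * RI := by rw [← mul_assoc, h3]
    _ = 1 := RM_RI

/-- **an isometry congruent to 1 modulo 2 is `±1`** -/
theorem eq_of_mod {A : M8} (hA : Aᵀ * Gm * A = Gm) (h2 : ∃ W : M8, A = 1 + 2 * W) : A = 1 ∨ A = -1 := by
  obtain ⟨W, hW⟩ := h2
  rcases root_cases hA hW (Qh_rt 0) with h | h
  · exact Or.inl (eq_one_of hA hW h)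
  · right
    have hA' : (-A)ᵀ * Gm * (-A) = Gm := by
      rw [transpose_neg, neg_mul, neg_mul_neg, hA]
    have h3 : -A = 1 := eq_one_of hA' (W := -1 - W) (by rw [hW]; noncomm_ring) (by rw [neg_mulVec, h, neg_neg])
    rw [← h3, neg_neg]

end Cfsg.Agent.H75.QO
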