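import Cfsg.Agent.H75.QO.PairChk
import Cfsg.Agent.H6.ORE.LargeOre
import Cfsg.Agent.H777.Ore.Base
import Cfsg.Agent.H630.Ore.Co1.InA

/-!
# Commutators in the double cover of `2^{1+8}.Ω₈⁺(2)` inside `Co0` (helper75, row 2.Co1 of S2492)

* `exists_lift` : every isometry of `𝔽₂⁸` lifts to an isometry of the octad lattice;
* `pairs` : `rho x ≠ 1` ⇒ `mu x = mu [a, b]` with `⟨rho a, rho b⟩ = Ω₈⁺(2)`;
* `isC_C0` : `x ∈ C(ε_o)`, `mk x ∉ RCo1 c0` ⇒ `x` is a commutator in `Co0`;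
* `isC_inA` : an element of `Co0` whose image commutes with a 2A involution of `Co1` is a commutator or a 2-element.
-/

set_option autoImplicit false

namespace Cfsg.Agent.H75.QO

open Cfsg Cfsg.Agent.SporadicA Cfsg.Agent.SporadicA.Co0Mono
open Cfsg.Agent.SporadicA.Co1Simple (allOne)
open Cfsg.Agent.StdO8.Model Cfsg.Agent.StdO8.Code
open Cfsg.Agent.H935.OreO8 (Dat data cm)
open Cfsg.Agent.CoOneType.GenCrit (c0)
open Cfsg.Agent.CoOneType.CentOctad (C0 mem_C0 sign_mem)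
open Cfsg.Agent.CoOneType.ClosingFacts (mk mk_mul mk_inv exists_mk mk_eq_one mk_eq)
open Cfsg.Agent.KFacts.Co1.RHat (Rh)
open Cfsg.Agent.KFacts.Co1.InCo1 (RCo1 comm_iff)
open Matrix

/-! ### Lifting isometries -/

/-- the reflection in a root over `dec 136` -/
def Tc : C8 := ⟨⟨1, 0, 0, 0, 0, 0, 0, 0⟩, ⟨0, 1, 0, 0, 0, 0, 0, 0⟩, ⟨0, 0, 1, 2, 0, 0, 0, -2⟩, ⟨0, 0, 0, 0, 0, 0, 0, 1⟩,
  ⟨0, 0, 0, 0, 1, 0, 0, 0⟩, ⟨0, 0, 0, 0, 0, 1, 0, 0⟩, ⟨0, 0, 0, 2, 0, 0, 1, -2⟩, ⟨0, 0, 0, 1, 0, 0, 0, 0⟩⟩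

theorem Tc_iso : isoB Tc = true := by decide +kernel

theorem Tc_pc : ∀ i : Fin 8, pc (Tc.col i) = (2 ^ i.1 ^^^ (if Bn 136 (2 ^ i.1) then 136 else 0)) := by decide +kernel

theorem exists_fin8 {b : ℕ} (hb : b ∈ basis) : ∃ i : Fin 8, b = 2 ^ i.1 := by
  simp only [basis, List.mem_cons, List.not_mem_nil, or_false] at hb
  rcases hb with rfl | rfl | rfl | rfl | rfl | rfl | rfl | rfl
  exacts [⟨0, rfl⟩, ⟨1, rfl⟩, ⟨2, rfl⟩, ⟨3, rfl⟩, ⟨4, rfl⟩, ⟨5, rfl⟩, ⟨6, rfl⟩, ⟨7, rfl⟩]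

theorem red_T : red (unit Tc Tc_iso) = Cfsg.Agent.StdO8.FactG.rh := by
  apply lin_ext
  intro b hb
  obtain ⟨i, rfl⟩ := exists_fin8 hb
  rw [Cfsg.Agent.StdO8.FactG.rh, Cfsg.Agent.StdO8.Gen.refl_dec, ← Tc_pc, dec_pc, ← psi_single, red_psi]
  congr 1
  exact mat_single Tc i

theorem exists_lift {h : V ≃ₗ[ZMod 2] V} (hh : h ∈ O8) : ∃ A ∈ Gam, red A = h := by
  rcases Cfsg.Agent.StdO8.FactG.mem_or hh with h1 | h1
  · rw [← rho_range] at h1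
    obtain ⟨g, hg⟩ := h1
    exact ⟨mu g, mu_mem g, hg⟩
  · rw [← rho_range] at h1
    obtain ⟨g, hg⟩ := h1
    refine ⟨mu g * unit Tc Tc_iso, Gam.mul_mem (mu_mem g) (unit_mem _ _), ?_⟩
    rw [map_mul, red_T, show red (mu g) = rho g from rfl, hg, mul_assoc, Cfsg.Agent.StdO8.FactG.rh_mul, mul_one]

/-! ### The pairs -/

theorem eq_cm {d : Dat} (hd : d ∈ data) {y : Om}
    (hy : ∀ i < 8, (y : V ≃ₗ[ZMod 2] V) (dec (2 ^ i)) = dec ((d.c >>> (8 * i)) % 2 ^ 8)) : y = cm d := by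
  apply Subtype.ext
  apply lin_ext
  intro b hb
  obtain ⟨i, rfl⟩ := exists_fin8 hb
  rw [hy i i.2, Cfsg.Agent.H935.OreO8.cw_dec hd i.2]

theorem pairs {x : C0 c0} (hx : rho x ≠ 1) : ∃ a b : C0 c0, mu x = mu (a * b * a⁻¹ * b⁻¹) ∧
    ∀ u : C0 c0, ∃ w ∈ Subgroup.closure ({a, b} : Set (C0 c0)), rho w = rho u := by
  have hxO : ∀ u : C0 c0, rho u ∈ Om := fun u => by rw [← rho_range]; exact ⟨u, rfl⟩
  have hm : (⟨rho x, hxO x⟩ : Om) ≠ 1 := fun h => hx (congrArg Subtype.val h)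
  obtain ⟨c, hc, h, y, hy, e⟩ := Cfsg.Agent.H201.O8.coverOm' hm
  rw [Cfsg.Agent.H201.O8.reps_data] at hc
  obtain ⟨d, hd, rfl⟩ := List.mem_map.1 hc
  have hy' : y = cm d := eq_cm hd hy
  have e1 : rho x = (h : V ≃ₗ[ZMod 2] V) * (cm d : Om) * (h : V ≃ₗ[ZMod 2] V)⁻¹ := by
    rw [← hy']
    exact congrArg Subtype.val e
  obtain ⟨H, hH, rH⟩ := exists_lift h.2
  have hN : H⁻¹ * mu x * H ∈ Gam := Gam.mul_mem (Gam.mul_mem (Gam.inv_mem hH) (mu_mem x)) hH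
  have hr : red (H⁻¹ * mu x * H) = ((cm d : Om) : V ≃ₗ[ZMod 2] V) := by
    rw [map_mul, map_mul, map_inv, rH, show red (mu x) = rho x from rfl, e1]
    group
  obtain ⟨A, B, hA, hB, hN2, a0, b0, ra, rb, hcl⟩ := both hd hN hr
  have hAO : red (H * A * H⁻¹) = (h : V ≃ₗ[ZMod 2] V) * a0 * (h : V ≃ₗ[ZMod 2] V)⁻¹ := by
    rw [map_mul, map_mul, map_inv, rH, ra]
  have hBO : red (H * B * H⁻¹) = (h : V ≃ₗ[ZMod 2] V) * b0 * (h : V ≃ₗ[ZMod 2] V)⁻¹ := by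
    rw [map_mul, map_mul, map_inv, rH, rb]
  obtain ⟨a, ha⟩ := exists_mu (A := H * A * H⁻¹) (Gam.mul_mem (Gam.mul_mem hH hA) (Gam.inv_mem hH))
    (by rw [hAO]; exact conj_Om h.2 a0.2)
  obtain ⟨b, hb⟩ := exists_mu (A := H * B * H⁻¹) (Gam.mul_mem (Gam.mul_mem hH hB) (Gam.inv_mem hH))
    (by rw [hBO]; exact conj_Om h.2 b0.2)
  refine ⟨a, b, ?_, ?_⟩
  · rw [map_mul, map_mul, map_mul, map_inv, map_inv, ha, hb]
    calc mu x = H * (H⁻¹ * mu x * H) * H⁻¹ := by group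
      _ = H * (A * B * A⁻¹ * B⁻¹) * H⁻¹ := by rw [hN2]
      _ = _ := by group
  · intro u
    set K : Subgroup (V ≃ₗ[ZMod 2] V) := (Subgroup.closure ({a, b} : Set (C0 c0))).map rho with hK
    let f : Om →* (V ≃ₗ[ZMod 2] V) := (MulAut.conj (h : V ≃ₗ[ZMod 2] V)).toMonoidHom.comp Om.subtype
    have hf : ∀ v : Om, f v = (h : V ≃ₗ[ZMod 2] V) * v * (h : V ≃ₗ[ZMod 2] V)⁻¹ := fun _ => rfl
    have h1 : (⊤ : Subgroup Om) ≤ K.comap f := by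
      rw [← hcl, Subgroup.closure_le]
      rintro _ (rfl | rfl)
      · show f _ ∈ K
        rw [hf, ← hAO, ← ha]
        exact ⟨a, Subgroup.subset_closure (Or.inl rfl), rfl⟩
      · show f _ ∈ K
        rw [hf, ← hBO, ← hb]
        exact ⟨b, Subgroup.subset_closure (Or.inr rfl), rfl⟩
    have h2 : (h : V ≃ₗ[ZMod 2] V)⁻¹ * rho u * (h : V ≃ₗ[ZMod 2] V)⁻¹⁻¹ ∈ Om := conj_Om (inv_mem h.2) (hxO u)
    have h3 : f ⟨_, h2⟩ ∈ K := h1 (Subgroup.mem_top _)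
    rw [hf] at h3
    have h4 : (h : V ≃ₗ[ZMod 2] V) * ((h : V ≃ₗ[ZMod 2] V)⁻¹ * rho u * (h : V ≃ₗ[ZMod 2] V)⁻¹⁻¹) *
        (h : V ≃ₗ[ZMod 2] V)⁻¹ = rho u := by group
    have h5 : rho u ∈ K := by rw [← h4]; exact h3
    obtain ⟨w, hw, e⟩ := h5
    exact ⟨w, hw, e⟩

/-! ### The coset lemma -/

/-- the centralizer in `Co1` -/
abbrev zO : Spor.Co1 := mk (signCo0 c0)

/-- the projection -/
def kap : C0 c0 →* Cfsg.Agent.H6.ORE.CZ zO where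
  toFun g := ⟨mk g, Subgroup.mem_centralizer_singleton_iff.2 ((comm_iff wt_c0 g).2 g.2)⟩
  map_one' := rfl
  map_mul' _ _ := rfl

theorem kap_coe (g : C0 c0) : ((kap g : Cfsg.Agent.H6.ORE.CZ zO) : Spor.Co1) = mk g := rfl

theorem kap_surj : Function.Surjective kap := by
  rintro ⟨k, hk⟩
  obtain ⟨g, rfl⟩ := exists_mk k
  exact ⟨⟨g, (comm_iff wt_c0 g).1 (Subgroup.mem_centralizer_singleton_iff.1 hk)⟩, rfl⟩

theorem mk_neg (g : Co0) : mk (signCo0 allOne * g) = mk g := by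
  rw [mk_mul, (mk_eq_one (signCo0 allOne)).2 (Or.inr rfl), one_mul]

theorem mem_R_of_rho {g : C0 c0} (h : rho g = 1) : mk (g : Co0) ∈ RCo1 c0 := by
  rcases (rho_eq_one_iff g).1 h with h1 | h1
  · exact ⟨_, h1, rfl⟩
  · exact ⟨_, h1, mk_neg _⟩

theorem neg_ne (A : M8ˣ) : A ≠ -A := by
  intro h
  have h1 : (A : M8) = -(A : M8) := congrArg Units.val h
  have h2 : (A : M8) = 0 := by
    ext i j
    have h3 := congrFun (congrFun h1 i) j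
    rw [Matrix.neg_apply] at h3
    show (A : M8) i j = 0
    omega
  have h3 : (1 : M8) = 0 := by rw [← A.mul_inv, h2, zero_mul]
  have h4 : (1 : M8) 0 0 = (0 : M8) 0 0 := congrFun (congrFun h3 0) 0
  exact absurd h4 (by decide)

theorem isC_C0 {x : Co0} (hx : x ∈ C0 c0) (hq : mk x ∉ RCo1 c0) : H777.Ore.IsC x := by
  have hfin : Finite Spor.Co1 := by
    have := fin_co0
    exact (inferInstance : Finite (Co0 ⧸ Subgroup.center Co0))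
  have hL := Cfsg.Agent.KFacts.Co1.InCo1.large wt_c0
  have hirr := Cfsg.Agent.KFacts.Co1.InCo1.irr wt_c0
  have hE := Cfsg.Agent.H6.ORE.es_of_large hL
  set Q' := (RCo1 c0).subgroupOf (Cfsg.Agent.H6.ORE.CZ zO) with hQ'
  have hn : Q'.Normal := hE.normal
  let X : C0 c0 := ⟨x, hx⟩
  have hrX : rho X ≠ 1 := fun h => hq (mem_R_of_rho h)
  obtain ⟨a, b, hab, hgen⟩ := pairs hrX
  have hQmem : ∀ g : C0 c0, mk (g : Co0) ∈ RCo1 c0 ↔ kap g ∈ Q' := fun g => Iff.rfl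
  let π : Cfsg.Agent.H6.ORE.CZ zO →* Cfsg.Agent.H6.ORE.CZ zO ⧸ Q' := QuotientGroup.mk' Q'
  have hker : π.ker = Q' := QuotientGroup.ker_mk' Q'
  have htop : Subgroup.closure ({π (kap a), π (kap b)} : Set (Cfsg.Agent.H6.ORE.CZ zO ⧸ Q')) = ⊤ := by
    rw [eq_top_iff]
    intro t _
    obtain ⟨k, rfl⟩ := QuotientGroup.mk'_surjective Q' t
    obtain ⟨u, rfl⟩ := kap_surj k
    obtain ⟨w, hw, e⟩ := hgen u
    have h1 : rho (w⁻¹ * u) = 1 := by rw [map_mul, map_inv, e, inv_mul_cancel]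
    have h2 : kap (w⁻¹ * u) ∈ Q' := mem_R_of_rho h1
    have h3 : π (kap u) = π (kap w) := by
      have h4 : π (kap (w⁻¹ * u)) = 1 := by
        have : kap (w⁻¹ * u) ∈ π.ker := by rw [hker]; exact h2
        exact this
      rw [map_mul, map_mul, map_inv, map_inv, inv_mul_eq_one] at h4
      exact h4.symm
    show π (kap u) ∈ _
    rw [h3]
    have h5 : (π.comp kap) w ∈ (Subgroup.closure ({a, b} : Set (C0 c0))).map (π.comp kap) := ⟨w, hw, rfl⟩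
    rw [MonoidHom.map_closure, Set.image_pair] at h5
    exact h5
  have hfp := Cfsg.Agent.H6.ORE.fpz_of_gen hL hirr π hker (a := kap a) (b := kap b) (c := kap X) hq htop
  have hc : kap X * (kap a * kap b * (kap a)⁻¹ * (kap b)⁻¹)⁻¹ ∈ Q' := by
    have h1 : mu (X * (a * b * a⁻¹ * b⁻¹)⁻¹) = 1 := by rw [map_mul, map_inv, ← hab, mul_inv_cancel]
    have h2 : rho (X * (a * b * a⁻¹ * b⁻¹)⁻¹) = 1 := by
      show red (mu _) = 1
      rw [h1, map_one]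
    exact mem_R_of_rho h2
  have hact : ∃ y ∈ Q', ¬ (kap X * y * (kap X)⁻¹ = y ∨ kap X * y * (kap X)⁻¹ = y * Cfsg.Agent.H6.ORE.zC zO) := by
    by_contra hno
    push Not at hno
    apply hq
    apply Cfsg.Agent.KFacts.LargeO2.mem_of_triv hL ((comm_iff wt_c0 x).2 hx)
    intro y hy
    by_contra hcon
    push Not at hcon
    have hyC : y ∈ Cfsg.Agent.H6.ORE.CZ zO := Subgroup.mem_centralizer_singleton_iff.2 (hL.comm_z y hy)
    have h2 := hno ⟨y, hyC⟩ hy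
    rcases h2 with h3 | h3
    · exact hcon.1 (congrArg Subtype.val h3)
    · exact hcon.2 (congrArg Subtype.val h3)
  obtain ⟨q₁, h₁, q₂, h₂, e⟩ := hE.step hfp hc hact
  obtain ⟨r₁, hr₁, e₁⟩ : (q₁ : Spor.Co1) ∈ RCo1 c0 := h₁
  obtain ⟨r₂, hr₂, e₂⟩ : (q₂ : Spor.Co1) ∈ RCo1 c0 := h₂
  have hr₁' : r₁ ∈ C0 c0 := Cfsg.Agent.KFacts.Co1.RHat.Rh_le_C0 wt_c0 hr₁
  have hr₂' : r₂ ∈ C0 c0 := Cfsg.Agent.KFacts.Co1.RHat.Rh_le_C0 wt_c0 hr₂
  let R₁ : C0 c0 := ⟨r₁, hr₁'⟩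
  let R₂ : C0 c0 := ⟨r₂, hr₂'⟩
  have k₁ : kap R₁ = q₁ := Subtype.ext e₁
  have k₂ : kap R₂ = q₂ := Subtype.ext e₂
  have m₁ : mu R₁ = 1 := (mu_eq_one_iff R₁).2 hr₁
  have m₂ : mu R₂ = 1 := (mu_eq_one_iff R₂).2 hr₂
  set Y : C0 c0 := (R₁ * a) * (R₂ * b) * (R₁ * a)⁻¹ * (R₂ * b)⁻¹ with hY
  have hmuY : mu Y = mu X := by
    rw [hab, hY]
    simp only [map_mul, map_inv, m₁, m₂, one_mul]
  have hmk : mk x = mk (Y : Co0) := by
    have h1 : kap X = kap Y := by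
      rw [e, hY]
      simp only [map_mul, map_inv, k₁, k₂]
    exact congrArg Subtype.val h1
  rcases (mk_eq _ _).1 hmk with h1 | h1
  · refine ⟨(R₁ * a : C0 c0), (R₂ * b : C0 c0), ?_⟩
    rw [h1, hY]
    rfl
  · exfalso
    have h2 : X = Y * negC := Subtype.ext h1
    have h3 : mu X = -mu Y := by rw [h2, map_mul, mu_neg, mul_neg, mul_one]
    rw [hmuY] at h3
    exact neg_ne _ h3

/-- **2A**: an element of `Co0` over an element commuting with a 2A involution of `Co1` is a commutator, unless it is a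
2-element -/
theorem isC_inA {x : Co0} (h : H630.Ore.Co1.InA (mk x)) (h2 : ¬ ∃ i : ℕ, mk x ^ 2 ^ i = 1) : H777.Ore.IsC x := by
  obtain ⟨u, ⟨c, hc, hu⟩, hg⟩ := h
  obtain ⟨k, hk⟩ := isConj_iff.1 ((Cfsg.Agent.CoOneType.ClosingFacts.isConj_octad wt_c0 hc).trans hu)
  obtain ⟨t, rfl⟩ := exists_mk k
  have hcomm : mk (t⁻¹ * x * t) * zO = zO * mk (t⁻¹ * x * t) := by
    rw [mk_mul, mk_mul, mk_inv]
    calc (mk t)⁻¹ * mk x * mk t * zO = (mk t)⁻¹ * (mk x * (mk t * zO * (mk t)⁻¹)) * mk t := by group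
      _ = (mk t)⁻¹ * ((mk t * zO * (mk t)⁻¹) * mk x) * mk t := by rw [hk, hg]
      _ = _ := by group
  have hC : t⁻¹ * x * t ∈ C0 c0 := (comm_iff wt_c0 _).1 hcomm
  by_cases hq : mk (t⁻¹ * x * t) ∈ RCo1 c0
  · exfalso
    apply h2
    have hL := Cfsg.Agent.KFacts.Co1.InCo1.large wt_c0
    have h4 : mk (t⁻¹ * x * t) ^ 4 = 1 := by
      rw [show (4 : ℕ) = 2 * 2 from rfl, pow_mul, pow_two (mk (t⁻¹ * x * t))]
      rcases hL.sq _ hq with h5 | h5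
      · rw [h5, one_pow]
      · rw [h5, pow_two]; exact hL.z_sq
    refine ⟨2, ?_⟩
    have h5 : mk x = mk t * mk (t⁻¹ * x * t) * (mk t)⁻¹ := by rw [mk_mul, mk_mul, mk_inv]; group
    rw [h5, show (2 : ℕ) ^ 2 = 4 from rfl, conj_pow, h4]
    group
  · exact (isC_C0 hC hq).of_conj t⁻¹ |> fun h => by simpa using h

end Cfsg.Agent.H75.QO
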