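import Cfsg.Agent.H75.QO.Data
import Cfsg.Agent.H201.O8.Fin

/-!
# Every isometry of the octad lattice over `Ω₈⁺(2)` is `±1` or a commutator of isometries generating `Ω₈⁺(2)`

helper75, row 2.Co1 of S2492.  `pairs : x ∈ C0 c0`, `rho x ≠ 1` ⇒ `mu x = mu [a, b]` with `⟨rho a, rho b⟩ = Om`.
-/

set_option autoImplicit false

namespace Cfsg.Agent.H75.QO

open Cfsg Cfsg.Agent.StdO8.Model Cfsg.Agent.StdO8.Code
open Cfsg.Agent.H935.OreO8 (Dat data chk cw cm word_cw closure_eq_top)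
open Cfsg.Agent.CoOneType.GenCrit (c0)
open Cfsg.Agent.CoOneType.CentOctad (C0)
open Matrix

theorem dot_fn (x y : R8) : x.dot y = x.fn ⬝ᵥ y.fn := by
  simp [R8.dot, R8.fn, dotProduct, Fin.sum_univ_eight]

theorem ap_fn (A : C8) (v : R8) : (A.ap v).fn = A.mat *ᵥ v.fn := by
  funext i
  fin_cases i <;> simp [C8.ap, C8.mat, C8.col, R8.fn, lin8, mulVec, dotProduct, Fin.sum_univ_eight]

theorem mat_single (A : C8) (i : Fin 8) : A.mat *ᵥ Pi.single i 1 = (A.col i).fn := by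
  funext j
  simp [C8.mat]

/-- the Gram matrix -/
def Gc : C8 := ⟨⟨4, 2, 2, -2, -3, -2, -2, -2⟩, ⟨2, 4, 2, -2, -2, 1, -2, -2⟩, ⟨2, 2, 4, -2, -2, 0, 1, 0⟩,
  ⟨-2, -2, -2, 4, 0, 2, 0, 3⟩, ⟨-3, -2, -2, 0, 4, 0, 2, 0⟩, ⟨-2, 1, 0, 2, 0, 4, 0, 2⟩, ⟨-2, -2, 1, 0, 2, 0, 4, 2⟩,
  ⟨-2, -2, 0, 3, 0, 2, 2, 4⟩⟩

theorem Gc_mat : Gc.mat = Gm := by decide +kernel

/-- isometry check -/
def isoB (A : C8) : Bool := decide (∀ j i : Fin 8, (A.col i).dot (Gc.ap (A.col j)) = Gm i j)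

theorem iso_of {A : C8} (h : isoB A = true) : A.matᵀ * Gm * A.mat = Gm := by
  have h1 := of_decide_eq_true h
  ext i j
  have h2 : Bl (A.mat *ᵥ Pi.single i 1) (A.mat *ᵥ Pi.single j 1) = (A.matᵀ * Gm * A.mat) i j := by
    rw [Bl_mulVec]; simp
  rw [← h2, mat_single, mat_single, Bl, ← Gc_mat, ← ap_fn, ← dot_fn, h1, Gc_mat]

/-- the unit -/
def unit (A : C8) (h : isoB A = true) : M8ˣ where
  val := A.mat
  inv := Gi * A.matᵀ * Gm
  inv_val := by rw [mul_assoc, mul_assoc, ← mul_assoc A.matᵀ, iso_of h, Gi_mul]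
  val_inv := by
    rw [mul_eq_one_comm, mul_assoc, mul_assoc, ← mul_assoc A.matᵀ, iso_of h, Gi_mul]

theorem unit_mem (A : C8) (h : isoB A = true) : unit A h ∈ Gam := iso_of h

theorem unit_mulVec (A : C8) (h : isoB A = true) (v : R8) : (unit A h : M8) *ᵥ v.fn = (A.ap v).fn := (ap_fn A v).symm

/-! ### Parity -/

/-- parity of an integer -/
def bt (z : ℤ) : Bool := z % 2 == 1

/-- the code of a vector -/
def pc (x : R8) : ℕ := (bt x.a).toNat + 2 * (bt x.b).toNat + 4 * (bt x.c).toNat + 8 * (bt x.d).toNat +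
  16 * (bt x.e).toNat + 32 * (bt x.f).toNat + 64 * (bt x.g).toNat + 128 * (bt x.h).toNat

theorem bits_spec : ∀ a b c d e f g h : Bool,
    (a.toNat + 2 * b.toNat + 4 * c.toNat + 8 * d.toNat + 16 * e.toNat + 32 * f.toNat + 64 * g.toNat + 128 * h.toNat).testBit 0 = a ∧
    (a.toNat + 2 * b.toNat + 4 * c.toNat + 8 * d.toNat + 16 * e.toNat + 32 * f.toNat + 64 * g.toNat + 128 * h.toNat).testBit 1 = b ∧
    (a.toNat + 2 * b.toNat + 4 * c.toNat + 8 * d.toNat + 16 * e.toNat + 32 * f.toNat + 64 * g.toNat + 128 * h.toNat).testBit 2 = c ∧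
    (a.toNat + 2 * b.toNat + 4 * c.toNat + 8 * d.toNat + 16 * e.toNat + 32 * f.toNat + 64 * g.toNat + 128 * h.toNat).testBit 3 = d ∧
    (a.toNat + 2 * b.toNat + 4 * c.toNat + 8 * d.toNat + 16 * e.toNat + 32 * f.toNat + 64 * g.toNat + 128 * h.toNat).testBit 4 = e ∧
    (a.toNat + 2 * b.toNat + 4 * c.toNat + 8 * d.toNat + 16 * e.toNat + 32 * f.toNat + 64 * g.toNat + 128 * h.toNat).testBit 5 = f ∧
    (a.toNat + 2 * b.toNat + 4 * c.toNat + 8 * d.toNat + 16 * e.toNat + 32 * f.toNat + 64 * g.toNat + 128 * h.toNat).testBit 6 = g ∧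
    (a.toNat + 2 * b.toNat + 4 * c.toNat + 8 * d.toNat + 16 * e.toNat + 32 * f.toNat + 64 * g.toNat + 128 * h.toNat).testBit 7 = h := by
  decide +kernel

theorem cc_bt (z : ℤ) : cc (bt z) = (z : ZMod 2) := by
  have h := Int.emod_two_eq_zero_or_one z
  have h1 : (z : ZMod 2) = ((z % 2 : ℤ) : ZMod 2) := by
    rw [ZMod.intCast_eq_intCast_iff]
    exact (Int.mod_modEq z 2).symm
  rw [h1, bt]
  rcases h with h | h <;> rw [h] <;> rfl

theorem dec_pc (x : R8) : dec (pc x) = psi x.fn := by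
  obtain ⟨h0, h1, h2, h3, h4, h5, h6, h7⟩ := bits_spec (bt x.a) (bt x.b) (bt x.c) (bt x.d) (bt x.e) (bt x.f) (bt x.g) (bt x.h)
  funext i
  show cc ((pc x).testBit (ix i)) = (x.fn (ef i) : ZMod 2)
  rcases i with i | i
  · fin_cases i
    · show cc ((pc x).testBit 0) = (x.a : ZMod 2)
      rw [pc, h0, cc_bt]
    · show cc ((pc x).testBit 1) = (x.b : ZMod 2)
      rw [pc, h1, cc_bt]
    · show cc ((pc x).testBit 2) = (x.c : ZMod 2)
      rw [pc, h2, cc_bt]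
    · show cc ((pc x).testBit 3) = (x.d : ZMod 2)
      rw [pc, h3, cc_bt]
  · fin_cases i
    · show cc ((pc x).testBit 4) = (x.e : ZMod 2)
      rw [pc, h4, cc_bt]
    · show cc ((pc x).testBit 5) = (x.f : ZMod 2)
      rw [pc, h5, cc_bt]
    · show cc ((pc x).testBit 6) = (x.g : ZMod 2)
      rw [pc, h6, cc_bt]
    · show cc ((pc x).testBit 7) = (x.h : ZMod 2)
      rw [pc, h7, cc_bt]

theorem psi_single : ∀ i : Fin 8, psi (Pi.single i 1) = dec (2 ^ i.1) := by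
  intro i
  funext a
  revert a
  revert i
  decide +kernel

/-- the reduction of the matrix is the word -/
def par (w : List (ℕ × ℕ)) (A : C8) : Bool := w.all ok && decide (∀ i : Fin 8, ev w (2 ^ i.1) = pc (A.col i))

theorem red_unit {w : List (ℕ × ℕ)} {A : C8} (hA : isoB A = true) (h : par w A = true) :
    red (unit A hA) = ((word w : Om) : V ≃ₗ[ZMod 2] V) := by
  rw [par, Bool.and_eq_true] at h
  have h2 := of_decide_eq_true h.2
  apply lin_ext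
  intro b hb
  have hb' : ∃ i : Fin 8, b = 2 ^ i.1 := by
    simp only [basis, List.mem_cons, List.not_mem_nil, or_false] at hb
    rcases hb with rfl | rfl | rfl | rfl | rfl | rfl | rfl | rfl
    exacts [⟨0, rfl⟩, ⟨1, rfl⟩, ⟨2, rfl⟩, ⟨3, rfl⟩, ⟨4, rfl⟩, ⟨5, rfl⟩, ⟨6, rfl⟩, ⟨7, rfl⟩]
  obtain ⟨i, rfl⟩ := hb'
  rw [word_dec h.1, h2, dec_pc, ← psi_single, red_psi]
  congr 1
  exact mat_single A i

/-! ### Entries -/

/-- negation -/
def R8.neg (x : R8) : R8 := ⟨-x.a, -x.b, -x.c, -x.d, -x.e, -x.f, -x.g, -x.h⟩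

theorem neg_fn (x : R8) : x.neg.fn = -x.fn := by
  funext i
  fin_cases i <;> rfl

/-- the checker -/
def chkE (d : Dat) (e : Ent) : Bool :=
  isoB e.A && isoB e.B && isoB e.A' && isoB e.B' &&
    (par d.a e.A && par d.b e.B && par e.d.a e.A' && par e.d.b e.B') &&
    (same (cw d) (cw e.d) && chk e.d) &&
    (decide (e.B'.ap (e.A'.ap e.x) = e.B.ap (e.A.ap ⟨1, 0, 0, 0, 0, 0, 0, 0⟩)) &&
      decide (e.A'.ap (e.B'.ap e.x) = (e.A.ap (e.B.ap ⟨1, 0, 0, 0, 0, 0, 0, 0⟩)).neg))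

end Cfsg.Agent.H75.QO
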