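import Cfsg.Agent.H75.QO.Pair

/-!
# The table of `H75.QO.Data` is correct, both lifts are commutators (helper75, row 2.Co1 of S2492)
-/

set_option autoImplicit false
set_option Elab.async false

namespace Cfsg.Agent.H75.QO

open Cfsg Cfsg.Agent.StdO8.Model Cfsg.Agent.StdO8.Code
open Cfsg.Agent.H935.OreO8 (Dat data chk cw cm word_cw closure_eq_top)
open Matrix

theorem all_of_chunks {α : Type*} (p : α → Bool) (m : ℕ) : ∀ (n : ℕ) (l : List α), l.length ≤ m * n →
    (∀ k < n, ((l.drop (m * k)).take m).all p = true) → l.all p = true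
  | 0, l, h, _ => by
    have h0 : l = [] := List.length_eq_zero_iff.1 (by omega)
    rw [h0]; rfl
  | n + 1, l, h, hk => by
    rw [← List.take_append_drop m l, List.all_append, Bool.and_eq_true]
    refine ⟨by simpa using hk 0 (Nat.succ_pos n), all_of_chunks p m n _ ?_ fun k hkn => ?_⟩
    · rw [List.length_drop]
      have : m * (n + 1) = m * n + m := by ring
      omega
    · rw [List.drop_drop]
      have h1 := hk (k + 1) (by omega)
      rwa [show m * (k + 1) = m + m * k by ring] at h1

/-- one entry -/
def one (k : ℕ) : Bool := (((data.zip ents).drop (1 * k)).take 1).all (fun p => chkE p.1 p.2)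

theorem one_0 : one 0 = true := by decide +kernel
theorem one_1 : one 1 = true := by decide +kernel
theorem one_2 : one 2 = true := by decide +kernel
theorem one_3 : one 3 = true := by decide +kernel
theorem one_4 : one 4 = true := by decide +kernel
theorem one_5 : one 5 = true := by decide +kernel
theorem one_6 : one 6 = true := by decide +kernel
theorem one_7 : one 7 = true := by decide +kernel
theorem one_8 : one 8 = true := by decide +kernel
theorem one_9 : one 9 = true := by decide +kernel
theorem one_10 : one 10 = true := by decide +kernel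
theorem one_11 : one 11 = true := by decide +kernel
theorem one_12 : one 12 = true := by decide +kernel
theorem one_13 : one 13 = true := by decide +kernel
theorem one_14 : one 14 = true := by decide +kernel
theorem one_15 : one 15 = true := by decide +kernel
theorem one_16 : one 16 = true := by decide +kernel
theorem one_17 : one 17 = true := by decide +kernel
theorem one_18 : one 18 = true := by decide +kernel
theorem one_19 : one 19 = true := by decide +kernel
theorem one_20 : one 20 = true := by decide +kernel
theorem one_21 : one 21 = true := by decide +kernel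
theorem one_22 : one 22 = true := by decide +kernel
theorem one_23 : one 23 = true := by decide +kernel
theorem one_24 : one 24 = true := by decide +kernel
theorem one_25 : one 25 = true := by decide +kernel
theorem one_26 : one 26 = true := by decide +kernel
theorem one_27 : one 27 = true := by decide +kernel
theorem one_28 : one 28 = true := by decide +kernel
theorem one_29 : one 29 = true := by decide +kernel
theorem one_30 : one 30 = true := by decide +kernel
theorem one_31 : one 31 = true := by decide +kernel
theorem one_32 : one 32 = true := by decide +kernel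
theorem one_33 : one 33 = true := by decide +kernel
theorem one_34 : one 34 = true := by decide +kernel
theorem one_35 : one 35 = true := by decide +kernel
theorem one_36 : one 36 = true := by decide +kernel
theorem one_37 : one 37 = true := by decide +kernel
theorem one_38 : one 38 = true := by decide +kernel

theorem len_le : (data.zip ents).length ≤ 1 * 39 := by decide +kernel

theorem chk_ents : (data.zip ents).all (fun p => chkE p.1 p.2) = true := by
  refine all_of_chunks _ 1 39 _ len_le fun k hk => ?_
  change one k = true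
  interval_cases k
  exacts [one_0, one_1, one_2, one_3, one_4, one_5, one_6, one_7, one_8, one_9, one_10, one_11, one_12, one_13, one_14, one_15, one_16, one_17, one_18, one_19, one_20, one_21, one_22, one_23, one_24, one_25, one_26, one_27, one_28, one_29, one_30, one_31, one_32, one_33, one_34, one_35, one_36, one_37, one_38]

theorem len_ents : data.length = ents.length := by decide +kernel

theorem exists_ent {d : Dat} (hd : d ∈ data) : ∃ e, chkE d e = true := by
  obtain ⟨i, hi, rfl⟩ := List.mem_iff_getElem.1 hd
  have hi' : i < ents.length := by rw [← len_ents]; exact hi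
  refine ⟨ents[i], ?_⟩
  refine List.all_eq_true.1 chk_ents (data[i], ents[i]) ?_
  rw [List.mem_iff_getElem]
  refine ⟨i, ?_, ?_⟩
  · rw [List.length_zip]; exact lt_min hi hi'
  · exact List.getElem_zip

theorem comm_eq_of {A B C : M8ˣ} {x : L8} (h : C = A * B * A⁻¹ * B⁻¹) :
    (C : M8) *ᵥ ((B : M8) *ᵥ ((A : M8) *ᵥ x)) = (A : M8) *ᵥ ((B : M8) *ᵥ x) := by
  have h1 : C * (B * A) = A * B := by rw [h]; group
  have h2 := congrArg (fun U : M8ˣ => (U : M8) *ᵥ x) h1
  simp only [Units.val_mul, ← mulVec_mulVec] at h2
  exact h2

/-- **both lifts** -/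
theorem both {d : Dat} (hd : d ∈ data) {N : M8ˣ} (hN : N ∈ Gam) (h : red N = ((cm d : Om) : V ≃ₗ[ZMod 2] V)) :
    ∃ A B : M8ˣ, A ∈ Gam ∧ B ∈ Gam ∧ N = A * B * A⁻¹ * B⁻¹ ∧ ∃ a b : Om, red A = a ∧ red B = b ∧
      Subgroup.closure ({a, b} : Set Om) = ⊤ := by
  obtain ⟨e, he⟩ := exists_ent hd
  simp only [chkE, Bool.and_eq_true, decide_eq_true_eq] at he
  obtain ⟨⟨⟨⟨⟨⟨hA, hB⟩, hA'⟩, hB'⟩, ⟨⟨pA, pB⟩, pA'⟩, pB'⟩, hs, hc⟩, h1, h2⟩ := he
  have rA := red_unit hA pA
  have rB := red_unit hB pB
  have rA' := red_unit hA' pA'
  have rB' := red_unit hB' pB'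
  have mA := unit_mem e.A hA
  have mB := unit_mem e.B hB
  have mA' := unit_mem e.A' hA'
  have mB' := unit_mem e.B' hB'
  have hred : red (unit e.A hA * unit e.B hB * (unit e.A hA)⁻¹ * (unit e.B hB)⁻¹) =
      ((cm d : Om) : V ≃ₗ[ZMod 2] V) := by
    rw [map_mul, map_mul, map_mul, map_inv, map_inv, rA, rB]; rfl
  have hred' : red (unit e.A' hA' * unit e.B' hB' * (unit e.A' hA')⁻¹ * (unit e.B' hB')⁻¹) =
      ((cm d : Om) : V ≃ₗ[ZMod 2] V) := by
    have h3 : cm e.d = cm d := by rw [← word_cw, ← word_cw]; exact (word_eq hs).symm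
    rw [← h3, map_mul, map_mul, map_mul, map_inv, map_inv, rA', rB']; rfl
  set C := unit e.A hA * unit e.B hB * (unit e.A hA)⁻¹ * (unit e.B hB)⁻¹ with hC
  set C' := unit e.A' hA' * unit e.B' hB' * (unit e.A' hA')⁻¹ * (unit e.B' hB')⁻¹ with hC'
  have mC : C ∈ Gam := Gam.mul_mem (Gam.mul_mem (Gam.mul_mem mA mB) (Gam.inv_mem mA)) (Gam.inv_mem mB)
  have mC' : C' ∈ Gam := Gam.mul_mem (Gam.mul_mem (Gam.mul_mem mA' mB') (Gam.inv_mem mA')) (Gam.inv_mem mB')
  rcases eq_of_red_eq hN mC (h.trans hred.symm) with h3 | h3
  · exact ⟨_, _, mA, mB, h3, _, _, rA, rB, closure_eq_top (List.all_eq_true.1 Cfsg.Agent.H935.OreO8.chk_data d hd)⟩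
  · have h4 : C' = C ∨ C' = -C := eq_of_red_eq mC' mC (hred'.trans hred.symm)
    have h5 : C' ≠ C := by
      intro h5
      have h6 := comm_eq_of (x := (⟨1, 0, 0, 0, 0, 0, 0, 0⟩ : R8).fn) hC
      have h7 := comm_eq_of (x := e.x.fn) hC'
      rw [unit_mulVec, unit_mulVec, unit_mulVec, unit_mulVec] at h6 h7
      rw [h5, h1, h6, h2, neg_fn] at h7
      set u := (e.A.ap (e.B.ap ⟨1, 0, 0, 0, 0, 0, 0, 0⟩)).fn with hu
      have h8 : u = 0 := by
        funext i
        have := congrFun h7 i
        rw [Pi.neg_apply] at this
        show u i = 0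
        omega
      have h9 : Qh u = 2 := by
        rw [hu, ← unit_mulVec e.A hA, ← unit_mulVec e.B hB, Qh_map mA, Qh_map mB]
        decide +kernel
      rw [h8] at h9
      exact absurd h9 (by decide +kernel)
    refine ⟨_, _, mA', mB', h3.trans (h4.resolve_left h5).symm, _, _, rA', rB', closure_eq_top hc⟩

end Cfsg.Agent.H75.QO
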