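import Cfsg.Agent.H75.QO.Mu
import Cfsg.Agent.StdO8.FactG
import Cfsg.Agent.StdO8.Uni
import Cfsg.Agent.StdO8.Code
import Cfsg.Agent.StdO8.Aut
import Cfsg.Agent.KFacts.Co1.YBig

/-!
# Reduction modulo 2 of the octad lattice (helper75, row 2.Co1 of S2492)

`red : GL₈(ℤ) →* GL(V)`, `rho : C0 c0 →* V ≃ₗ V`; `rho_range : rho.range = Om`; `exists_mu`: an isometry of the octad
lattice with reduction in `Om` is `mu g`; `exists_lift`: every isometry of `V` lifts.
-/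

set_option autoImplicit false

namespace Cfsg.Agent.H75.QO

open Cfsg Cfsg.Agent.SporadicA Cfsg.Agent.SporadicA.Co0Mono
open Cfsg.Agent.SporadicA.Co1Simple (allOne)
open Cfsg.Agent.CoOneType.GenCrit (c0 m0 m0_code)
open Cfsg.Agent.CoOneType.CentOctad (C0 mem_C0 sign_mem)
open Cfsg.Agent.KFacts.Co1.RHat
open Cfsg.Agent.StdO8.Model Cfsg.Agent.StdO8.Code
open Matrix

/-- the indices -/
def ef : Fin 4 ⊕ Fin 4 ≃ Fin 8 := finSumFinEquiv

/-- the reduction of vectors -/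
def psi (n : L8) : V := fun a => (n (ef a) : ZMod 2)

theorem psi_apply (n : L8) (a : Fin 4 ⊕ Fin 4) : psi n a = (n (ef a) : ZMod 2) := rfl

theorem psi_surj (v : V) : ∃ n, psi n = v := by
  refine ⟨fun i => (((v (ef.symm i)).val : ℕ) : ℤ), ?_⟩
  funext a
  rw [psi_apply, Equiv.symm_apply_apply]
  push_cast
  exact ZMod.natCast_zmod_val _

/-- the form modulo two -/
theorem q_psi (n : L8) : q (psi n) = (Qh n : ZMod 2) := by
  rw [q_apply, Fin.sum_univ_four]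
  have e0 : ef (Sum.inl (0 : Fin 4)) = 0 := by decide
  have e1 : ef (Sum.inl (1 : Fin 4)) = 1 := by decide
  have e2 : ef (Sum.inl (2 : Fin 4)) = 2 := by decide
  have e3 : ef (Sum.inl (3 : Fin 4)) = 3 := by decide
  have e4 : ef (Sum.inr (0 : Fin 4)) = 4 := by decide
  have e5 : ef (Sum.inr (1 : Fin 4)) = 5 := by decide
  have e6 : ef (Sum.inr (2 : Fin 4)) = 6 := by decide
  have e7 : ef (Sum.inr (3 : Fin 4)) = 7 := by decide
  simp only [psi_apply, e0, e1, e2, e3, e4, e5, e6, e7]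
  have h : Qh n = n 0 * n 4 + n 1 * n 5 + n 2 * n 6 + n 3 * n 7 + 2 * ((n 0 ^ 2 + n 1 ^ 2 + n 2 ^ 2 + n 3 ^ 2 + n 4 ^ 2 +
      n 5 ^ 2 + n 6 ^ 2 + n 7 ^ 2) +
    n 0 * n 1 + n 0 * n 2 - n 0 * n 3 - 2 * n 0 * n 4 - n 0 * n 5 - n 0 * n 6 - n 0 * n 7 +
    n 1 * n 2 - n 1 * n 3 - n 1 * n 4 - n 1 * n 6 - n 1 * n 7 -
    n 2 * n 3 - n 2 * n 4 + n 3 * n 5 + n 3 * n 7 + n 4 * n 6 +
    n 5 * n 7 + n 6 * n 7) := by
    rw [Qh]; ring
  rw [h]
  push_cast
  rw [show (2 : ZMod 2) = 0 from rfl, zero_mul, add_zero]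

/-- the reduction of matrices -/
def rmap : M8 →+* Matrix (Fin 4 ⊕ Fin 4) (Fin 4 ⊕ Fin 4) (ZMod 2) :=
  ((Matrix.reindexAlgEquiv (ZMod 2) (ZMod 2) ef.symm).toRingEquiv.toRingHom).comp
    (Int.castRingHom (ZMod 2)).mapMatrix

theorem rmap_apply (A : M8) (a b : Fin 4 ⊕ Fin 4) :
    rmap A a b = (A (ef a) (ef b) : ZMod 2) := rfl

theorem rmap_mulVec (A : M8) (n : L8) : rmap A *ᵥ psi n = psi (A *ᵥ n) := by
  funext a
  rw [psi_apply]
  show ∑ b, rmap A a b * psi n b = ((∑ j, A (ef a) j * n j : ℤ) : ZMod 2)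
  rw [Int.cast_sum, ← Equiv.sum_comp ef fun x => ((A (ef a) x * n x : ℤ) : ZMod 2)]
  refine Finset.sum_congr rfl fun b _ => ?_
  rw [rmap_apply, psi_apply, Int.cast_mul]

/-- **the reduction** -/
def red : M8ˣ →* (V ≃ₗ[ZMod 2] V) :=
  (LinearMap.GeneralLinearGroup.generalLinearEquiv (ZMod 2) V).toMonoidHom.comp
    ((Matrix.GeneralLinearGroup.toLin (n := Fin 4 ⊕ Fin 4) (R := ZMod 2)).toMonoidHom.comp (Units.map rmap.toMonoidHom))

theorem red_apply' (A : M8ˣ) (v : V) : red A v = rmap (A : M8) *ᵥ v := rfl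

theorem red_psi (A : M8ˣ) (n : L8) : red A (psi n) = psi ((A : M8) *ᵥ n) := rmap_mulVec _ n

theorem red_mem {A : M8ˣ} (hA : A ∈ Gam) : red A ∈ O8 := by
  rw [mem_O8]
  intro v
  obtain ⟨n, rfl⟩ := psi_surj v
  rw [red_psi, q_psi, q_psi, Qh_map hA]

theorem mod_two_of_red {A : M8ˣ} (h : red A = 1) : ∃ W : M8, (A : M8) = 1 + 2 * W := by
  have h1 : ∀ i j, (2 : ℤ) ∣ ((A : M8) - 1) i j := by
    intro i j
    obtain ⟨a, rfl⟩ := ef.surjective i
    refine (ZMod.intCast_zmod_eq_zero_iff_dvd _ 2).1 ?_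
    have h2 : red A (psi (Pi.single j 1)) = psi (Pi.single j 1) := by rw [h]; rfl
    rw [red_psi] at h2
    have h3 := congrFun h2 a
    rw [psi_apply, psi_apply] at h3
    have h4 : ((A : M8) *ᵥ Pi.single j 1) (ef a) = (A : M8) (ef a) j := by simp
    rw [h4] at h3
    rw [Matrix.sub_apply, Int.cast_sub, h3, Matrix.one_apply, Pi.single_apply]
    exact sub_self _
  choose W hW using h1
  refine ⟨Matrix.of W, ?_⟩
  ext i j
  have h2 := hW i j
  rw [Matrix.sub_apply] at h2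
  rw [Matrix.add_apply, two_mul, Matrix.add_apply, Matrix.of_apply]
  linarith

theorem eq_of_red {A : M8ˣ} (hA : A ∈ Gam) (h : red A = 1) : A = 1 ∨ A = -1 := by
  rcases eq_of_mod hA (mod_two_of_red h) with h1 | h1
  · exact Or.inl (Units.ext h1)
  · exact Or.inr (Units.ext h1)

/-- the isometries with the same reduction -/
theorem eq_of_red_eq {A B : M8ˣ} (hA : A ∈ Gam) (hB : B ∈ Gam) (h : red A = red B) : A = B ∨ A = -B := by
  have h1 : red (B⁻¹ * A) = 1 := by rw [map_mul, map_inv, h, inv_mul_cancel]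
  rcases eq_of_red (Gam.mul_mem (Gam.inv_mem hB) hA) h1 with h2 | h2
  · left
    rw [← mul_one B, ← h2, mul_inv_cancel_left]
  · right
    have h3 : A = B * (B⁻¹ * A) := by group
    rw [h3, h2, mul_neg, mul_one]

/-- the action on `V` -/
noncomputable def rho : C0 c0 →* (V ≃ₗ[ZMod 2] V) := red.comp mu

theorem rho_mem (g : C0 c0) : rho g ∈ O8 := red_mem (mu_mem g)

theorem red_neg_one : red (-1) = 1 := by
  apply LinearEquiv.ext
  intro v
  obtain ⟨n, rfl⟩ := psi_surj v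
  rw [red_psi, Units.val_neg, Units.val_one, neg_mulVec, one_mulVec]
  funext a
  show psi (-n) a = psi n a
  rw [psi_apply, psi_apply, Pi.neg_apply, Int.cast_neg]
  have : ∀ x : ZMod 2, -x = x := by decide
  exact this _

theorem rho_eq_one_iff (g : C0 c0) : rho g = 1 ↔ (g : Co0) ∈ Rh c0 ∨ (negC * g : Co0) ∈ Rh c0 := by
  constructor
  · intro h
    rcases eq_of_red (mu_mem g) h with h1 | h1
    · exact Or.inl ((mu_eq_one_iff g).1 h1)
    · right
      have h2 : mu (negC * g) = 1 := by rw [map_mul, mu_neg, h1, neg_mul_neg, mul_one]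
      exact (mu_eq_one_iff _).1 h2
  · rintro (h | h)
    · have h1 := (mu_eq_one_iff g).2 h
      show red (mu g) = 1
      rw [h1, map_one]
    · have h1 := (mu_eq_one_iff (negC * g)).2 h
      rw [map_mul, mu_neg] at h1
      show red (mu g) = 1
      have h2 : mu g = -1 := by
        have h3 : -1 * (-1 * mu g) = -1 * (1 : M8ˣ) := by rw [h1]
        simpa using h3
      rw [h2, red_neg_one]

/-! ### The image -/

theorem conj_Om {M A : V ≃ₗ[ZMod 2] V} (hM : M ∈ O8) (hA : A ∈ Om) : M * A * M⁻¹ ∈ Om :=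
  Cfsg.Agent.LieClassical.OrthCore.conj_mem_E hM hA

theorem comm_Om {M N : V ≃ₗ[ZMod 2] V} (hM : M ∈ O8) (hN : N ∈ O8) : M * N * M⁻¹ * N⁻¹ ∈ Om := by
  have key : ∀ {M N : V ≃ₗ[ZMod 2] V}, M ∈ Om → N ∈ O8 → M * N * M⁻¹ * N⁻¹ ∈ Om := by
    intro M N hM hN
    rw [show M * N * M⁻¹ * N⁻¹ = M * (N * M⁻¹ * N⁻¹) by group]
    exact mul_mem hM (conj_Om hN (inv_mem hM))
  rcases Cfsg.Agent.StdO8.FactG.mem_or hM with h1 | h1
  · exact key h1 hN
  rcases Cfsg.Agent.StdO8.FactG.mem_or hN with h2 | h2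
  · rw [show M * N * M⁻¹ * N⁻¹ = (N * M * N⁻¹ * M⁻¹)⁻¹ by group]
    exact inv_mem (key h2 hM)
  set r := Cfsg.Agent.StdO8.FactG.rh with hr
  have hrr : r * r = 1 := Cfsg.Agent.StdO8.FactG.rh_mul
  have hri : r⁻¹ = r := Cfsg.Agent.StdO8.FactG.rh_inv
  have e : M * N * M⁻¹ * N⁻¹ = (M * r) * (r * ((N * r) * (M * r)⁻¹) * r⁻¹) * (N * r)⁻¹ := by
    calc M * N * M⁻¹ * N⁻¹ = M * (r * r) * N * (r * r⁻¹) * M⁻¹ * (r⁻¹ * r⁻¹) * N⁻¹ := by
          rw [hrr, hri, hrr]; group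
      _ = _ := by group
  rw [e]
  exact mul_mem (mul_mem h1 (conj_Om Cfsg.Agent.StdO8.FactG.rh_mem (mul_mem h2 (inv_mem h1)))) (inv_mem h2)

theorem wt_c0 : Cfsg.Agent.CoOneType.SignFacts.wt c0 = 8 := Cfsg.Agent.CoOneType.ModelFinal.wt_c0

theorem rho_range_le : rho.range ≤ Om := by
  have hp : ⁅(⊤ : Subgroup (C0 c0)), (⊤ : Subgroup (C0 c0))⁆ = ⊤ := by
    apply Subgroup.map_injective (C0 c0).subtype_injective
    rw [Subgroup.map_commutator, ← MonoidHom.range_eq_map, Subgroup.range_subtype]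
    exact Cfsg.Agent.KFacts.Co1.Perf.comm_eq wt_c0
  rw [MonoidHom.range_eq_map, ← hp, Subgroup.map_commutator, Subgroup.commutator_le]
  rintro _ ⟨a, -, rfl⟩ _ ⟨b, -, rfl⟩
  exact comm_Om (rho_mem a) (rho_mem b)

theorem card_Rh : Nat.card (Rh c0) = 512 := by
  rw [Nat.card_congr (Cfsg.Agent.KFacts.Co1.InCo1.rEquiv wt_c0).toEquiv]
  exact Cfsg.Agent.KFacts.Co1.YBig.card_R wt_c0

theorem fin_co0 : Finite Co0 := Cfsg.Agent.CoOneType.FrameFix.finite_co0

theorem card_ker : Nat.card rho.ker ≤ 1024 := by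
  classical
  have := fin_co0
  let f : rho.ker → Rh c0 ⊕ Rh c0 := fun g =>
    if h : (g.1 : Co0) ∈ Rh c0 then Sum.inl ⟨_, h⟩
    else Sum.inr ⟨(negC * g.1 : Co0), ((rho_eq_one_iff g.1).1 g.2).resolve_left h⟩
  have hf : Function.Injective f := by
    intro g g' h
    by_cases h1 : (g.1 : Co0) ∈ Rh c0 <;> by_cases h2 : (g'.1 : Co0) ∈ Rh c0
    · simp only [f, dif_pos h1, dif_pos h2] at h
      have h3 : (⟨(g.1 : Co0), h1⟩ : Rh c0) = ⟨(g'.1 : Co0), h2⟩ := Sum.inl.inj h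
      have h4 : (g.1 : Co0) = (g'.1 : Co0) := congrArg (fun y : Rh c0 => (y : Co0)) h3
      exact Subtype.ext (Subtype.ext h4)
    · simp only [f, dif_pos h1, dif_neg h2] at h
      exact absurd h (by simp)
    · simp only [f, dif_neg h1, dif_pos h2] at h
      exact absurd h (by simp)
    · simp only [f, dif_neg h1, dif_neg h2] at h
      have h3 := congrArg Subtype.val (Sum.inr.inj h)
      exact Subtype.ext (Subtype.ext (mul_left_cancel h3))
  refine (Nat.card_le_card_of_injective f hf).trans ?_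
  rw [Nat.card_sum, card_Rh]

/-- **the image is `Ω₈⁺(2)`** -/
theorem rho_range : rho.range = Om := by
  have := fin_co0
  have hfin : Finite Om := by
    apply Nat.finite_of_card_ne_zero
    rw [Cfsg.Agent.StdO8.Uni.card_Om]
    norm_num
  refine Subgroup.eq_of_le_of_card_ge rho_range_le ?_
  rw [Cfsg.Agent.StdO8.Uni.card_Om]
  have h1 : Nat.card rho.ker * Nat.card rho.range = Nat.card (C0 c0) := by
    rw [← Subgroup.index_ker, Subgroup.card_mul_index]
  have h2 := Cfsg.Agent.CoOneType.CentOctad.card_C0 wt_c0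
  have h3 := card_ker
  rw [← h1] at h2
  by_contra h4
  push Not at h4
  have h5 : Nat.card rho.range ≤ 174182399 := by
    have h8 : (2 : ℕ) ^ 12 * 42525 = 174182400 := by norm_num
    rw [h8] at h4
    exact Nat.le_of_lt_succ h4
  have h6 := Nat.mul_le_mul h3 h5
  have h7 := h2.trans h6
  norm_num at h7

theorem eq_mu_of {A : M8ˣ} (hA : A ∈ Gam) {g : C0 c0} (h : red A = rho g) : A = mu g ∨ A = mu (negC * g) := by
  rcases eq_of_red_eq hA (mu_mem g) h with h1 | h1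
  · exact Or.inl h1
  · right
    rw [h1, map_mul, mu_neg, neg_mul, one_mul]

/-- an isometry of the octad lattice with reduction in `Om` comes from `C(ε_o)` -/
theorem exists_mu {A : M8ˣ} (hA : A ∈ Gam) (h : red A ∈ Om) : ∃ g : C0 c0, mu g = A := by
  rw [← rho_range] at h
  obtain ⟨g, hg⟩ := h
  rcases eq_mu_of hA hg.symm with h1 | h1
  · exact ⟨_, h1.symm⟩
  · exact ⟨_, h1.symm⟩

end Cfsg.Agent.H75.QO
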